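import Cfsg.Agent.Lib.ToddCox.Glue
set_option autoImplicit false
set_option maxRecDepth 100000
namespace Cfsg.Agent.Lib.ToddCox.A6C3
def E_0 : ℕ := 0x2000000040000044000002000000000000080000084000000000000100000040000040000000
end Cfsg.Agent.Lib.ToddCox.A6C3
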